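import Groth.Prelude.Def_Found
import Mathlib.RingTheory.AdicCompletion.Algebra
import Mathlib.RingTheory.RegularLocalRing.Defs
import Mathlib.RingTheory.Localization.BaseChange
import Mathlib.RingTheory.Ideal.GoingUp
import Mathlib.RingTheory.TensorProduct.Finite
import Groth.Agent.Ega2.CompleteFinite
import Groth.Agent.Ega4A.RegLocusGen

/-!
# Geometric regularity of `A_p` from regularity of the completed base changes

For a complete Noetherian local `k`-algebra `A` and a prime `p`, if for all field extensions `k'` of `k` all
localizations of `A ⊗̂_k k'` at primes over `p` are regular, then `A_p` is geometrically regular over `k`: for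
`k'` finite over `k`, `A ⊗_k k'` is already complete.
-/

set_option autoImplicit false

universe u

open scoped TensorProduct

namespace Groth.Agent.Ega4late.H430.GeomRegOfCompl

/-- A finite algebra over a complete Noetherian local ring is complete for the extended ideal. -/
theorem isAdicComplete_map {A R : Type u} [CommRing A] [IsLocalRing A] [IsNoetherianRing A]
    [IsAdicComplete (IsLocalRing.maximalIdeal A) A] [CommRing R] [Algebra A R] [Module.Finite A R] :
    IsAdicComplete ((IsLocalRing.maximalIdeal A).map (algebraMap A R)) R := by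
  rw [IsAdicComplete.map_algebraMap_iff]
  exact Groth.Agent.Ega2.CompleteFinite.isAdicComplete_of_finite (R := A) (M := R)

theorem isGeometricallyRegular (k A : Type u) [Field k] [CommRing A]
    [IsLocalRing A] [IsNoetherianRing A] [Algebra k A] [IsAdicComplete (IsLocalRing.maximalIdeal A) A]
    (p : Ideal A) [p.IsPrime]
    (h : ∀ (k' : Type u) [Field k'] [Algebra k k']
        (p' : Ideal (AdicCompletion ((IsLocalRing.maximalIdeal A).map
          (Algebra.TensorProduct.includeLeft : A →ₐ[k] A ⊗[k] k')) (A ⊗[k] k'))) [p'.IsPrime],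
        (p'.comap (algebraMap (A ⊗[k] k') _)).comap
            (Algebra.TensorProduct.includeLeft : A →ₐ[k] A ⊗[k] k').toRingHom = p →
          IsRegularLocalRing (Localization.AtPrime p')) :
    CAlg.IsGeometricallyRegular k (Localization.AtPrime p) := by
  intro k' _ _ hfin
  -- the completion does nothing for finite `k'`
  have hfin' : Module.Finite A (A ⊗[k] k') := inferInstance
  have hc : IsAdicComplete ((IsLocalRing.maximalIdeal A).map
      (Algebra.TensorProduct.includeLeft : A →ₐ[k] A ⊗[k] k')) (A ⊗[k] k') :=
    isAdicComplete_map (A := A) (R := A ⊗[k] k')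
  let e := AdicCompletion.ofAlgEquiv ((IsLocalRing.maximalIdeal A).map
      (Algebra.TensorProduct.includeLeft : A →ₐ[k] A ⊗[k] k')) (S := A ⊗[k] k')
  have h1 : ∀ (q : Ideal (A ⊗[k] k')) [q.IsPrime], q.comap (algebraMap A (A ⊗[k] k')) = p →
      IsRegularLocalRing (Localization.AtPrime q) := by
    intro q hq hqp
    have h2 := h k' (q.comap e.symm.toRingEquiv) (by
      rw [← hqp]
      ext a
      simp only [Ideal.mem_comap]
      have h3 : e.symm (algebraMap (A ⊗[k] k') _ (algebraMap A (A ⊗[k] k') a)) =
          algebraMap A (A ⊗[k] k') a := by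
        rw [AlgEquiv.commutes]
        rfl
      change e.symm (algebraMap (A ⊗[k] k') _ (algebraMap A (A ⊗[k] k') a)) ∈ q ↔ _
      rw [h3])
    exact IsRegularLocalRing.of_ringEquiv (IsLocalization.ringEquivOfRingEquiv
      (Localization.AtPrime (q.comap e.symm.toRingEquiv)) (Localization.AtPrime q)
      e.symm.toRingEquiv (e.symm.toRingEquiv.map_primeCompl_comap_eq q))
  -- the localization `A_p ⊗_A (A ⊗_k k')`
  let T := (Localization.AtPrime p) ⊗[A] (A ⊗[k] k')
  let _ : Algebra (A ⊗[k] k') T := Algebra.TensorProduct.rightAlgebra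
  have hloc : IsLocalization (Algebra.algebraMapSubmonoid (A ⊗[k] k') p.primeCompl) T :=
    IsLocalization.tensorRight (A := Localization.AtPrime p) (S := A ⊗[k] k') p.primeCompl
  have hnoeth : IsNoetherianRing (A ⊗[k] k') := IsNoetherianRing.of_finite A _
  have hnoethT : IsNoetherianRing T :=
    IsLocalization.isNoetherianRing (Algebra.algebraMapSubmonoid (A ⊗[k] k') p.primeCompl) T
      inferInstance
  have hreg : IsRegularRing T := by
    refine isRegularRing_iff.2 fun q _ => ?_
    have : IsLocalization.AtPrime (Localization.AtPrime q) (q.under (A ⊗[k] k')) :=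
      IsLocalization.isLocalization_isLocalization_atPrime_isLocalization
        (Algebra.algebraMapSubmonoid (A ⊗[k] k') p.primeCompl) (Localization.AtPrime q) q
    have hle : (q.under (A ⊗[k] k')).comap (algebraMap A (A ⊗[k] k')) ≤ p := by
      intro a ha
      by_contra hap
      have h3 : algebraMap (A ⊗[k] k') T (algebraMap A (A ⊗[k] k') a) ∈ q := ha
      have h4 : IsUnit (algebraMap (A ⊗[k] k') T (algebraMap A (A ⊗[k] k') a)) :=
        IsLocalization.map_units T (⟨algebraMap A (A ⊗[k] k') a,
          Algebra.mem_algebraMapSubmonoid_of_mem ⟨a, hap⟩⟩ :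
            Algebra.algebraMapSubmonoid (A ⊗[k] k') p.primeCompl)
      exact (inferInstance : q.IsPrime).ne_top (Ideal.eq_top_of_isUnit_mem _ h3 h4)
    obtain ⟨Q, hQ, hQp, hQA⟩ := Ideal.exists_ideal_over_prime_of_isIntegral_of_isPrime
      (R := A) (S := A ⊗[k] k') p (q.under (A ⊗[k] k')) hle
    have := h1 Q hQA
    have h5 : IsRegularLocalRing (Localization.AtPrime (q.under (A ⊗[k] k'))) :=
      Groth.Agent.Ega4A.RegLocusGen.isRegularLocalRing_atPrime_of_le Q (q.under (A ⊗[k] k')) hQ
    exact IsRegularLocalRing.of_ringEquiv (IsLocalization.algEquiv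
      (q.under (A ⊗[k] k')).primeCompl (Localization.AtPrime (q.under (A ⊗[k] k')))
      (Localization.AtPrime q)).toRingEquiv
  exact IsRegularRing.of_ringEquiv
    ((Algebra.TensorProduct.cancelBaseChange k A A (Localization.AtPrime p) k').toRingEquiv.trans
      (Algebra.TensorProduct.comm k (Localization.AtPrime p) k').toRingEquiv)

end Groth.Agent.Ega4late.H430.GeomRegOfCompl
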